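import Cfsg.Prelude.Def_Solvable
import Cfsg.Agent.Subnormal.BaerSuzuki
import Mathlib.GroupTheory.SchurZassenhaus
import Mathlib.GroupTheory.Perm.Cycle.Type
import Mathlib.Tactic.Group

/-!
Camina-type pairs `(G,N)` with `N = O_p(G)`, `G` transitive on `N \ 1`, point stabilisers p-groups:
then `G/N` is a p'-group and `G` is a doubly transitive Frobenius group.
-/

set_option autoImplicit false

namespace CfsgLib.Gagola

open Subgroup

variable {G : Type*} [Group G] [Finite G] (N : Subgroup G) [N.Normal]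

/-- centralizer order preserved in the quotient ⇒ every element of `gN` is conjugate to `g`. -/
theorem camina {g : G}
    (h : Nat.card (centralizer ({g} : Set G)) = Nat.card (centralizer ({(g : G ⧸ N)} : Set (G ⧸ N))))
    {n : G} (hn : n ∈ N) : ∃ t : G, t * g * t⁻¹ = g * n := by
  classical
  set Cb := centralizer ({(g : G ⧸ N)} : Set (G ⧸ N))
  set T := Cb.comap (QuotientGroup.mk' N)
  set C := (centralizer ({g} : Set G)).subgroupOf T with hC
  have hle : centralizer ({g} : Set G) ≤ T := by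
    intro t ht
    rw [mem_centralizer_singleton_iff] at ht
    show (t : G ⧸ N) ∈ Cb
    rw [mem_centralizer_singleton_iff, ← QuotientGroup.mk_mul, ← QuotientGroup.mk_mul, ht]
  have hT : Nat.card T = Nat.card N * Nat.card Cb := by
    have h1 : T.index = Cb.index := Cb.index_comap_of_surjective (QuotientGroup.mk'_surjective N)
    have h2 := T.card_mul_index
    rw [h1, N.card_eq_card_quotient_mul_card_subgroup, ← Cb.card_mul_index] at h2
    have hpos : 0 < Cb.index := Nat.pos_of_ne_zero Cb.index_ne_zero_of_finite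
    exact Nat.eq_of_mul_eq_mul_right hpos (by rw [h2]; ring)
  have hcardC : Nat.card C = Nat.card (centralizer ({g} : Set G)) :=
    Nat.card_congr (subgroupOfEquivOfLe hle).toEquiv
  have hidx : C.index = Nat.card N := by
    have h2 := C.card_mul_index
    rw [hcardC, h, hT] at h2
    exact Nat.eq_of_mul_eq_mul_left (Nat.card_pos (α := Cb)) (by rw [h2]; ring)
  have hmem : ∀ t : T, g⁻¹ * ((t : G) * g * (t : G)⁻¹) ∈ N := by
    intro t
    have ht : ((t : G) : G ⧸ N) ∈ Cb := t.2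
    rw [mem_centralizer_singleton_iff] at ht
    rw [← QuotientGroup.eq_one_iff]
    simp only [QuotientGroup.mk_mul, QuotientGroup.mk_inv, ht, mul_inv_cancel_right, inv_mul_cancel]
  let F : T ⧸ C → N := fun q => ⟨_, hmem q.out⟩
  have hF : Function.Injective F := by
    intro a b hab
    have h1 : (a.out : G) * g * (a.out : G)⁻¹ = (b.out : G) * g * (b.out : G)⁻¹ :=
      mul_left_cancel (congrArg Subtype.val hab)
    have h2 : (a.out : T)⁻¹ * b.out ∈ C := by
      show ((a.out⁻¹ * b.out : T) : G) ∈ centralizer ({g} : Set G)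
      rw [mem_centralizer_singleton_iff, Subgroup.coe_mul, Subgroup.coe_inv]
      calc ((a.out : G)⁻¹ * (b.out : G)) * g
          = (a.out : G)⁻¹ * ((b.out : G) * g * (b.out : G)⁻¹) * (b.out : G) := by group
        _ = (a.out : G)⁻¹ * ((a.out : G) * g * (a.out : G)⁻¹) * (b.out : G) := by rw [h1]
        _ = _ := by group
    have h3 := QuotientGroup.eq.2 h2
    rwa [QuotientGroup.out_eq', QuotientGroup.out_eq'] at h3
  have hbij : Function.Bijective F :=
    (Nat.bijective_iff_injective_and_card F).2 ⟨hF, by rw [← index_eq_card, hidx]⟩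
  obtain ⟨q, hq⟩ := hbij.2 ⟨n, hn⟩
  refine ⟨(q.out : G), ?_⟩
  have := congrArg Subtype.val hq
  simp only [F] at this
  rw [← this]
  group

variable {p : ℕ} [hp : Fact p.Prime]

/-- A nontrivial p-element normalising the nontrivial p-group `N` fixes a point `≠ 1`. -/
theorem exists_fixed (hNp : IsPGroup p N) (hN1 : N ≠ ⊥) {h : G} (hh : IsPGroup p (zpowers h)) :
    ∃ n ∈ N, n ≠ 1 ∧ h * n = n * h := by
  letI : MulAction (zpowers h) N :=
    MulAction.compHom N ((MulAut.conjNormal : G →* MulAut N).comp (zpowers h).subtype)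
  have hsmul : ∀ (a : zpowers h) (n : N), ((a • n : N) : G) = (a : G) * n * (a : G)⁻¹ :=
    fun a n => MulAut.conjNormal_apply _ _
  obtain ⟨k, hk⟩ := IsPGroup.iff_card.1 hNp
  have hk0 : k ≠ 0 := fun h0 => hN1 (card_eq_one.1 (by rw [hk, h0, pow_zero]))
  obtain ⟨b, hb, hb1⟩ := hh.exists_fixed_point_of_prime_dvd_card_of_fixed_point N
    (hk ▸ dvd_pow_self p hk0) (a := 1) (fun a => Subtype.ext (by simp [hsmul]))
  refine ⟨b, b.2, fun hz => hb1 (Subtype.ext hz).symm, ?_⟩
  have := congrArg Subtype.val (hb ⟨h, mem_zpowers h⟩)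
  rw [hsmul] at this
  exact mul_inv_eq_iff_eq_mul.1 this

omit [N.Normal] in
/-- An element of order prime to p has no fixed point in `N \ 1`. -/
theorem free_of_coprime (hNp : IsPGroup p N) (hcam : ∀ g : G, g ∉ N → ∀ n ∈ N, ∃ t : G, t * g * t⁻¹ = g * n)
    {g : G} (hg : ¬ p ∣ orderOf g) (hg1 : g ≠ 1) {n : G} (hn : n ∈ N) (hc : g * n = n * g) : n = 1 := by
  obtain ⟨k, hk⟩ := IsPGroup.iff_orderOf.1 hNp ⟨n, hn⟩
  rw [Subgroup.orderOf_mk] at hk
  have hgN : g ∉ N := by
    intro hgN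
    obtain ⟨j, hj⟩ := IsPGroup.iff_orderOf.1 hNp ⟨g, hgN⟩
    rw [Subgroup.orderOf_mk] at hj
    rcases Nat.eq_zero_or_pos j with rfl | hj0
    · exact hg1 (orderOf_eq_one_iff.1 (by simpa using hj))
    · exact hg (hj ▸ dvd_pow_self p hj0.ne')
  obtain ⟨t, ht⟩ := hcam g hgN n hn
  have h1 : orderOf (g * n) = orderOf g := by
    rw [← ht]
    exact orderOf_injective (MulAut.conj t).toMonoidHom (MulAut.conj t).injective g
  rw [Commute.orderOf_mul_eq_mul_orderOf_of_coprime hc] at h1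
  · exact orderOf_eq_one_iff.1 ((Nat.mul_eq_left (orderOf_pos g).ne').1 h1)
  · rw [hk]
    exact Nat.Coprime.pow_right _ ((hp.out.coprime_iff_not_dvd.2 hg).symm)

/-- The odd characteristic case. -/
theorem not_dvd_index_odd (hp2 : p ≠ 2) (hNp : IsPGroup p N) (hNc : ∀ a ∈ N, ∀ b ∈ N, a * b = b * a)
    (hN1 : N ≠ ⊥) (hcen : centralizer (N : Set G) ≤ N)
    (hcam : ∀ g : G, g ∉ N → ∀ n ∈ N, ∃ t : G, t * g * t⁻¹ = g * n)
    (heven : 2 ∣ Nat.card G) : ¬ p ∣ N.index := by
  classical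
  intro hdvd
  haveI : Fact (Nat.Prime 2) := ⟨Nat.prime_two⟩
  obtain ⟨t, ht⟩ := exists_prime_orderOf_dvd_card' (G := G) 2 heven
  have ht2 : t * t = 1 := by
    have h := pow_orderOf_eq_one t
    rwa [ht, pow_two] at h
  have hti : t⁻¹ = t := inv_eq_of_mul_eq_one_right ht2
  have ht1 : t ≠ 1 := by
    intro h
    rw [h, orderOf_one] at ht
    omega
  have hfree : ∀ n ∈ N, t * n = n * t → n = 1 := fun n hn hc =>
    free_of_coprime N hNp hcam (by rw [ht]; exact fun h => hp2 ((Nat.prime_dvd_prime_iff_eq hp.out Nat.prime_two).1 h))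
      ht1 hn hc
  have hinv : ∀ n ∈ N, t * n * t = n⁻¹ := by
    intro n hn
    have hn' : t * n * t ∈ N := by
      have := Subgroup.Normal.conj_mem inferInstance n hn t
      rwa [hti] at this
    refine (inv_eq_of_mul_eq_one_right (hfree (n * (t * n * t)) (mul_mem hn hn') ?_)).symm
    calc t * (n * (t * n * t)) = (t * n * t) * n * t := by
          simp only [mul_assoc]
      _ = n * (t * n * t) * t := by rw [hNc _ hn' _ hn]
  -- every element is congruent to one commuting with t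
  have hdec : ∀ g : G, ∃ m ∈ N, t * (m * g) = (m * g) * t := by
    intro g
    have hc : t * g * t * g⁻¹ ∈ N := by
      refine hcen (mem_centralizer_iff.2 fun n (hn : n ∈ N) => ?_)
      have h1 : g⁻¹ * n * g ∈ N := by
        have := Subgroup.Normal.conj_mem inferInstance n hn g⁻¹
        rwa [inv_inv] at this
      have h2 : (t * g * t * g⁻¹) * n * (t * g * t * g⁻¹)⁻¹ = n := by
        calc _ = t * (g * (t * (g⁻¹ * n * g) * t⁻¹) * g⁻¹) * t⁻¹ := by group
          _ = t * (g * (g⁻¹ * n * g)⁻¹ * g⁻¹) * t := by rw [hti, hinv _ h1]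
          _ = t * n⁻¹ * t := by group
          _ = n := by rw [hinv _ (inv_mem hn), inv_inv]
      calc n * (t * g * t * g⁻¹) = ((t * g * t * g⁻¹) * n * (t * g * t * g⁻¹)⁻¹) * (t * g * t * g⁻¹) := by rw [h2]
        _ = _ := by group
    set c := t * g * t * g⁻¹ with hcdef
    obtain ⟨k, hk⟩ := IsPGroup.iff_orderOf.1 hNp ⟨c, hc⟩
    rw [Subgroup.orderOf_mk] at hk
    have hodd : Odd (orderOf c) := hk ▸ (hp.out.odd_of_ne_two hp2).pow
    obtain ⟨j, hj⟩ := hodd
    -- a square root of c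
    refine ⟨c ^ (j + 1), pow_mem hc _, ?_⟩
    have hsq : c ^ (j + 1) * c ^ (j + 1) = c := by
      rw [← pow_add, show j + 1 + (j + 1) = orderOf c + 1 by omega, pow_succ, pow_orderOf_eq_one, one_mul]
    have h3 : t * (c ^ (j + 1)) * t = (c ^ (j + 1))⁻¹ := hinv _ (pow_mem hc _)
    set m := c ^ (j + 1)
    have h4 : t * (m * g) * t⁻¹ = m * g := by
      calc t * (m * g) * t⁻¹ = (t * m * t⁻¹) * (t * g * t⁻¹) := by group
        _ = m⁻¹ * (c * g) := by rw [hti, h3, hcdef]; group
        _ = m⁻¹ * (m * m * g) := by rw [hsq]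
        _ = _ := by group
    calc t * (m * g) = (t * (m * g) * t⁻¹) * t := by group
      _ = _ := by rw [h4]
  set H := centralizer ({t} : Set G)
  have hinj : ∀ a ∈ H, ∀ b ∈ H, a⁻¹ * b ∈ N → a = b := by
    intro a ha b hb hab
    have := hfree _ hab ((mem_centralizer_singleton_iff.1 (H.mul_mem (H.inv_mem ha) hb)).symm)
    exact (inv_mul_eq_one.1 this)
  have hbij : Function.Bijective fun a : H => ((a : G) : G ⧸ N) := by
    refine ⟨fun a b hab => Subtype.ext (hinj _ a.2 _ b.2 (QuotientGroup.eq.1 hab)), fun q => ?_⟩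
    induction q using QuotientGroup.induction_on with
    | H g =>
      obtain ⟨m, hm, hc⟩ := hdec g
      refine ⟨⟨m * g, mem_centralizer_singleton_iff.2 hc.symm⟩, QuotientGroup.eq.2 ?_⟩
      have := Subgroup.Normal.conj_mem inferInstance _ (inv_mem hm) g⁻¹
      simpa [mul_assoc] using this
  have hcard : Nat.card H = N.index := Nat.card_eq_of_bijective _ hbij
  obtain ⟨h, hh⟩ := exists_prime_orderOf_dvd_card' (G := H) p (hcard ▸ hdvd)
  have hh' : orderOf (h : G) = p := by rw [Subgroup.orderOf_coe, hh]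
  have hhN : (h : G) ∉ N := by
    intro hhN
    have : (1 : G) = (h : G) := hinj _ (one_mem H) _ h.2 (by simpa using hhN)
    rw [← this, orderOf_one] at hh'
    exact hp.out.ne_one hh'.symm
  obtain ⟨n₀, hn₀, hn₀1, hn₀c⟩ := exists_fixed N hNp hN1 (h := (h : G))
    (IsPGroup.of_card (n := 1) (by rw [Nat.card_zpowers, hh', pow_one]))
  -- m ↦ [m, h] is surjective on N
  have hmem : ∀ m : N, (m : G) * h * (m : G)⁻¹ * (h : G)⁻¹ ∈ N := fun m => by
    rw [show (m : G) * h * (m : G)⁻¹ * (h : G)⁻¹ = (m : G) * ((h : G) * (m : G)⁻¹ * (h : G)⁻¹) by group]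
    exact mul_mem m.2 (Subgroup.Normal.conj_mem inferInstance _ (inv_mem m.2) _)
  let F : N → N := fun m => ⟨_, hmem m⟩
  have hsurj : Function.Surjective F := by
    rintro ⟨k, hk⟩
    obtain ⟨c, hc⟩ := hcam (h : G) hhN ((h : G)⁻¹ * k * (h : G)) (by
      have := Subgroup.Normal.conj_mem inferInstance k hk (h : G)⁻¹
      rwa [inv_inv] at this)
    obtain ⟨m, hm, hmc⟩ := hdec c
    set c' : G := m * c with hc'
    have hc'H : c' ∈ H := mem_centralizer_singleton_iff.2 hmc.symm
    have e1 : (h : G) * ((h : G)⁻¹ * k * (h : G)) = k * h := by group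
    rw [e1] at hc
    have h' : c' * h * c'⁻¹ = h := by
      refine (hinj _ h.2 _ (H.mul_mem (H.mul_mem hc'H h.2) (H.inv_mem hc'H)) ?_).symm
      rw [hc', show (h : G)⁻¹ * (m * c * h * (m * c)⁻¹) = (h : G)⁻¹ * (m * (c * h * c⁻¹) * m⁻¹) by group, hc,
        show (h : G)⁻¹ * (m * (k * h) * m⁻¹) = ((h : G)⁻¹ * (m * k) * h) * m⁻¹ by group]
      refine mul_mem ?_ (inv_mem hm)
      have := Subgroup.Normal.conj_mem inferInstance _ (mul_mem hm hk) (h : G)⁻¹
      rwa [inv_inv] at this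
    refine ⟨⟨m⁻¹, inv_mem hm⟩, Subtype.ext ?_⟩
    show m⁻¹ * h * m⁻¹⁻¹ * (h : G)⁻¹ = k
    calc m⁻¹ * h * m⁻¹⁻¹ * (h : G)⁻¹ = m⁻¹ * (c' * h * c'⁻¹) * m * (h : G)⁻¹ := by rw [h', inv_inv]
      _ = (c * h * c⁻¹) * (h : G)⁻¹ := by rw [hc']; group
      _ = k := by rw [hc]; group
  have hF : Function.Injective F := Finite.injective_iff_surjective.2 hsurj
  have : (⟨n₀, hn₀⟩ : N) = 1 := hF (Subtype.ext (by
    show n₀ * (h : G) * n₀⁻¹ * (h : G)⁻¹ = (1 : G) * (h : G) * (1 : G)⁻¹ * (h : G)⁻¹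
    rw [← hn₀c]; group))
  exact hn₀1 (congrArg Subtype.val this)

omit [Finite G] in
/-- closure of two involutions with product of 2-power order is a 2-group -/
theorem isPGroup_two_of_involutions {Q : Type*} [Group Q] {a b : Q} (ha : a * a = 1) (hb : b * b = 1)
    {k : ℕ} (hk : (a * b) ^ 2 ^ k = 1) : IsPGroup 2 (closure ({a, b} : Set Q)) := by
  have hZ : IsPGroup 2 (zpowers (a * b)) := by
    rintro ⟨x, i, rfl⟩
    refine ⟨k, Subtype.ext ?_⟩
    show ((a * b) ^ i) ^ 2 ^ k = 1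
    rw [← zpow_natCast, ← zpow_mul, mul_comm, zpow_mul, zpow_natCast, hk, one_zpow]
  have hA : IsPGroup 2 (zpowers a) := by
    rintro ⟨x, i, rfl⟩
    refine ⟨1, Subtype.ext ?_⟩
    show (a ^ i) ^ 2 ^ 1 = 1
    rw [← zpow_natCast, ← zpow_mul, mul_comm, zpow_mul, zpow_natCast, pow_one, pow_two, ha, one_zpow]
  have hai : a⁻¹ = a := inv_eq_of_mul_eq_one_right ha
  have hbi : b⁻¹ = b := inv_eq_of_mul_eq_one_right hb
  have hconj : ∀ i : ℤ, a * (a * b) ^ i * a⁻¹ ∈ zpowers (a * b) := fun i => by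
    rw [← conj_zpow, hai, ← mul_assoc, ha, one_mul, show b * a = (a * b)⁻¹ by rw [mul_inv_rev, hai, hbi]]
    exact zpow_mem (inv_mem (mem_zpowers _)) i
  have hnorm : zpowers a ≤ normalizer (zpowers (a * b) : Set Q) := by
    rw [zpowers_le, mem_normalizer_iff]
    intro x
    refine ⟨fun hx => ?_, fun hx => ?_⟩
    · obtain ⟨i, rfl⟩ := hx
      exact hconj i
    · obtain ⟨i, hi⟩ := hx
      have h2 := hconj i
      simp only at hi
      rw [hi] at h2
      have : a * (a * x * a⁻¹) * a⁻¹ = x := by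
        rw [hai]
        calc a * (a * x * a) * a = (a * a) * x * (a * a) := by simp only [mul_assoc]
          _ = x := by rw [ha, one_mul, mul_one]
      rwa [this] at h2
  refine (hA.to_sup_of_normal_right' hZ hnorm).to_le ?_
  rw [closure_le]
  rintro x (rfl | rfl)
  · exact mem_sup_left (mem_zpowers _)
  · show x ∈ zpowers a ⊔ zpowers (a * x)
    have := mul_mem (mem_sup_left (T := zpowers (a * x)) (inv_mem (mem_zpowers a)))
      (mem_sup_right (S := zpowers a) (mem_zpowers (a * x)))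
    rwa [inv_mul_cancel_left] at this

/-- The characteristic two case. -/
theorem not_dvd_index_two (hN2 : ∀ n ∈ N, n * n = 1) (hcen : centralizer (N : Set G) ≤ N)
    (hcam : ∀ g : G, g ∉ N → ∀ n ∈ N, ∃ t : G, t * g * t⁻¹ = g * n)
    (hcore : Cfsg.pCore 2 (G ⧸ N) = ⊥) : ¬ 2 ∣ N.index := by
  classical
  intro hdvd
  haveI : Fact (Nat.Prime 2) := ⟨Nat.prime_two⟩
  have hNp : IsPGroup 2 N := fun n => ⟨1, Subtype.ext (by
    show (n : G) ^ 2 ^ 1 = 1
    rw [pow_one, pow_two]; exact hN2 _ n.2)⟩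
  have hinvN : ∀ n ∈ N, n⁻¹ = n := fun n hn => inv_eq_of_mul_eq_one_right (hN2 n hn)
  have hNc : ∀ a ∈ N, ∀ b ∈ N, a * b = b * a := fun a ha b hb => by
    have := hinvN _ (mul_mem ha hb)
    rwa [mul_inv_rev, hinvN a ha, hinvN b hb, eq_comm] at this
  obtain ⟨xb, hxb⟩ := exists_prime_orderOf_dvd_card' (G := G ⧸ N) 2 hdvd
  have hxb2 : xb * xb = 1 := by
    have h := pow_orderOf_eq_one xb
    rwa [hxb, pow_two] at h
  have hxb1 : xb ≠ 1 := by
    intro h; rw [h, orderOf_one] at hxb; omega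
  have hnot : ¬ ∀ g : G ⧸ N, IsPGroup 2 ↥(closure ({xb, g * xb * g⁻¹} : Set (G ⧸ N))) := by
    intro h
    have := CfsgLib.Subnormal.mem_pCore_of_forall_isPGroup h
    rw [hcore, mem_bot] at this
    exact hxb1 this
  push Not at hnot
  obtain ⟨gb, hgb⟩ := hnot
  set yb := gb * xb * gb⁻¹ with hyb
  have hyb2 : yb * yb = 1 := by
    rw [hyb, show gb * xb * gb⁻¹ * (gb * xb * gb⁻¹) = gb * (xb * xb) * gb⁻¹ by group, hxb2]; group
  have hinvx : xb⁻¹ = xb := inv_eq_of_mul_eq_one_right hxb2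
  have hinvy : yb⁻¹ = yb := inv_eq_of_mul_eq_one_right hyb2
  obtain ⟨z₁, hz₁⟩ := QuotientGroup.mk_surjective (s := N) (xb * yb)
  obtain ⟨e, m, hmodd, hem⟩ := Nat.exists_eq_two_pow_mul_odd (orderOf_pos z₁).ne'
  set z := z₁ ^ 2 ^ e with hz
  have hzord : Odd (orderOf z) := by
    have : orderOf z = m := by
      rw [hz, orderOf_pow_of_dvd (pow_ne_zero _ two_ne_zero) (hem ▸ dvd_mul_right _ _), hem,
        Nat.mul_div_cancel_left _ (pow_pos two_pos e)]
    rwa [this]
  have hzN : z ∉ N := by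
    intro hzN
    refine hgb (isPGroup_two_of_involutions hxb2 hyb2 (k := e) ?_)
    rw [← hz₁, ← QuotientGroup.mk_pow]
    exact (QuotientGroup.eq_one_iff _).2 hzN
  have hfreez : ∀ n ∈ N, z * n = n * z → n = 1 := fun n hn hc =>
    free_of_coprime N hNp hcam (fun h => (Nat.not_even_iff_odd.2 hzord) (even_iff_two_dvd.2 h))
      (fun h => hzN (h ▸ one_mem N)) hn hc
  obtain ⟨x, hx⟩ := QuotientGroup.mk_surjective (s := N) xb
  have hxN : x ∉ N := fun h => hxb1 (hx ▸ (QuotientGroup.eq_one_iff x).2 h)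
  have hx2 : x * x ∈ N := by
    rw [← QuotientGroup.eq_one_iff, QuotientGroup.mk_mul, hx, hxb2]
  have hxz : x * z * x⁻¹ * z ∈ N := by
    rw [← QuotientGroup.eq_one_iff]
    simp only [hz, QuotientGroup.mk_mul, QuotientGroup.mk_pow, QuotientGroup.mk_inv, hx, hz₁]
    rw [← conj_pow, show xb * (xb * yb) * xb⁻¹ = (xb * yb)⁻¹ by
      rw [mul_inv_rev, hinvx, hinvy, ← mul_assoc, hxb2, one_mul], inv_pow, inv_mul_cancel]
  -- f n = x n x⁻¹ n
  let f : N →* N :=
    { toFun := fun n => ⟨x * (n : G) * x⁻¹ * (n : G),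
        mul_mem (Subgroup.Normal.conj_mem inferInstance _ n.2 x) n.2⟩
      map_one' := Subtype.ext (by simp)
      map_mul' := fun a b => Subtype.ext (by
        show x * ((a : G) * b) * x⁻¹ * ((a : G) * b) = (x * a * x⁻¹ * a) * (x * b * x⁻¹ * b)
        have hxb' : x * (b : G) * x⁻¹ ∈ N := Subgroup.Normal.conj_mem inferInstance _ b.2 x
        calc x * ((a : G) * b) * x⁻¹ * ((a : G) * b)
            = (x * a * x⁻¹) * ((x * b * x⁻¹) * a) * b := by group
          _ = (x * a * x⁻¹) * ((a : G) * (x * b * x⁻¹)) * b := by rw [hNc _ hxb' _ a.2]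
          _ = _ := by group) }
  let A : Subgroup G := N ⊓ centralizer ({x} : Set G)
  have hker : ∀ n : N, n ∈ f.ker ↔ (n : G) ∈ A := by
    intro n
    rw [MonoidHom.mem_ker]
    constructor
    · intro h
      refine ⟨n.2, mem_centralizer_singleton_iff.2 ?_⟩
      have h1 : x * (n : G) * x⁻¹ * (n : G) = 1 := congrArg Subtype.val h
      have h2 : x * (n : G) * x⁻¹ = (n : G) := by
        rw [eq_inv_of_mul_eq_one_left h1, hinvN _ n.2]
      conv_lhs => rw [← h2]
      group
    · intro h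
      refine Subtype.ext ?_
      show x * (n : G) * x⁻¹ * (n : G) = 1
      rw [← mem_centralizer_singleton_iff.1 h.2, mul_inv_cancel_right, hN2 _ n.2]
  have hrange : ∀ n : N, ((f n : N) : G) ∈ A := by
    intro n
    refine ⟨(f n).2, mem_centralizer_singleton_iff.2 ?_⟩
    show x * (n : G) * x⁻¹ * (n : G) * x = x * (x * (n : G) * x⁻¹ * (n : G))
    have h1 : x * (n : G) * x⁻¹ ∈ N := Subgroup.Normal.conj_mem inferInstance _ n.2 x
    have h2 : x * (x * (n : G) * x⁻¹) * x⁻¹ = (n : G) := by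
      calc x * (x * (n : G) * x⁻¹) * x⁻¹ = (x * x) * (n : G) * (x * x)⁻¹ := by group
        _ = (n : G) := by rw [hNc _ hx2 _ n.2, mul_inv_cancel_right]
    calc x * (n : G) * x⁻¹ * (n : G) * x = ((x * (n : G) * x⁻¹) * (n : G)) * x := by group
      _ = ((n : G) * (x * (n : G) * x⁻¹)) * x := by rw [hNc _ h1 _ n.2]
      _ = ((x * (x * (n : G) * x⁻¹) * x⁻¹) * (x * (n : G) * x⁻¹)) * x := by rw [h2]
      _ = _ := by group
  have hAN : A ≤ N := inf_le_left
  let A' := A.subgroupOf N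
  have hkerA : f.ker = A' := by ext n; exact hker n
  have hrA : f.range ≤ A' := by rintro _ ⟨n, rfl⟩; exact hrange n
  -- |A|² ≤ |N|
  have hsq : Nat.card A' * Nat.card A' ≤ Nat.card N := by
    let F : A' × A' → N := fun ab =>
      ⟨((ab.1 : N) : G) * (z * ((ab.2 : N) : G) * z⁻¹),
        mul_mem ab.1.1.2 (Subgroup.Normal.conj_mem inferInstance _ ab.2.1.2 z)⟩
    have hF : Function.Injective F := by
      rintro ⟨a, b⟩ ⟨a', b'⟩ h
      have h1 : ((a : N) : G) * (z * ((b : N) : G) * z⁻¹) = ((a' : N) : G) * (z * ((b' : N) : G) * z⁻¹) :=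
        congrArg Subtype.val h
      set d : G := ((a' : N) : G)⁻¹ * ((a : N) : G)
      have hd : d ∈ A := mul_mem (inv_mem a'.2) a.2
      set d' : G := ((b' : N) : G) * ((b : N) : G)⁻¹
      have hd' : d' ∈ A := mul_mem b'.2 (inv_mem b.2)
      have hdd : d = z * d' * z⁻¹ := by
        calc d = ((a' : N) : G)⁻¹ * (((a : N) : G) * (z * ((b : N) : G) * z⁻¹)) * (z * ((b : N) : G) * z⁻¹)⁻¹ := by
              simp only [d]; group
          _ = ((a' : N) : G)⁻¹ * (((a' : N) : G) * (z * ((b' : N) : G) * z⁻¹)) * (z * ((b : N) : G) * z⁻¹)⁻¹ := by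
              rw [h1]
          _ = _ := by simp only [d']; group
      have hcx : x * d = d * x := (mem_centralizer_singleton_iff.1 hd.2).symm
      have hcx' : (z * x * z⁻¹) * d = d * (z * x * z⁻¹) := by
        rw [hdd]
        have e : x * d' = d' * x := (mem_centralizer_singleton_iff.1 hd'.2).symm
        calc (z * x * z⁻¹) * (z * d' * z⁻¹) = z * (x * d') * z⁻¹ := by group
          _ = z * (d' * x) * z⁻¹ := by rw [e]
          _ = _ := by group
      -- (z x z⁻¹) x⁻¹ ≡ z²
      have hcc : Commute ((z * x * z⁻¹) * x⁻¹) d := (Commute.mul_left (hcx' : Commute _ _) (Commute.inv_left hcx))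
      set n₁ := x * z * x⁻¹ * z with hn₁
      have hcn : Commute (n₁ : G) d := hNc _ hxz _ (hAN hd)
      have hz2 : Commute (z * z) d := by
        have e : z * z = (z * x * z⁻¹ * x⁻¹) * n₁ := by rw [hn₁]; group
        rw [e]
        exact hcc.mul_left hcn
      obtain ⟨j, hj⟩ := hzord
      have hzd : Commute z d := by
        have e : (z * z) ^ (j + 1) = z := by
          rw [← pow_two, ← pow_mul, show 2 * (j + 1) = orderOf z + 1 by omega, pow_succ, pow_orderOf_eq_one, one_mul]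
        rw [← e]
        exact hz2.pow_left _
      have hd1 : d = 1 := hfreez d (hAN hd) hzd
      have hd'1 : d' = 1 := by
        have e : d' = z⁻¹ * d * z := by rw [hdd]; group
        rw [e, hd1]; group
      refine Prod.ext (Subtype.ext (Subtype.ext (inv_mul_eq_one.1 hd1).symm)) (Subtype.ext (Subtype.ext (mul_inv_eq_one.1 hd'1).symm))
    have := Nat.card_le_card_of_injective F hF
    rwa [Nat.card_prod] at this
  have hle : Nat.card f.range ≤ Nat.card A' := Nat.card_le_card_of_injective _ (inclusion_injective hrA)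
  have hprod : Nat.card A' * Nat.card f.range = Nat.card N := by
    rw [← hkerA, ← index_ker, card_mul_index]
  have heq : f.range = A' := by
    refine eq_of_le_of_card_ge hrA ?_
    have hpos : 0 < Nat.card A' := Nat.card_pos
    nlinarith
  have hx2A : (⟨x * x, hx2⟩ : N) ∈ A' :=
    ⟨hx2, mem_centralizer_singleton_iff.2 (mul_assoc _ _ _)⟩
  rw [← heq] at hx2A
  obtain ⟨m, hm⟩ := hx2A
  have hm' : x * (m : G) * x⁻¹ * (m : G) = x * x := congrArg Subtype.val hm
  set y := (m : G) * x with hy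
  have hy2 : y * y = 1 := by
    calc y * y = ((m : G) * (x * (m : G) * x⁻¹)) * (x * x) := by rw [hy]; group
      _ = (x * (m : G) * x⁻¹ * (m : G)) * (x * x) := by
          rw [hNc _ m.2 _ (Subgroup.Normal.conj_mem inferInstance _ m.2 x)]
      _ = (x * x) * (x * x) := by rw [hm']
      _ = 1 := hN2 _ hx2
  have hyN : y ∉ N := fun h => hxN (by
    have := mul_mem (inv_mem m.2) h
    rwa [hy, inv_mul_cancel_left] at this)
  -- some n ∈ N does not commute with x
  obtain ⟨n, hn, hnx⟩ : ∃ n ∈ N, ¬ n * x = x * n := by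
    by_contra hcon
    push Not at hcon
    exact hxN (hcen (mem_centralizer_iff.2 fun n hn => hcon n hn))
  obtain ⟨t, ht⟩ := hcam y hyN n hn
  have h1 : (y * n) * (y * n) = 1 := by
    rw [← ht, show t * y * t⁻¹ * (t * y * t⁻¹) = t * (y * y) * t⁻¹ by group, hy2]; group
  refine hnx ?_
  have hyn : y * n * y⁻¹ = n := by
    have e : y * n * y⁻¹ = (y * n) * (y * n) * n⁻¹ * (y * y)⁻¹ := by group
    rw [e, h1, hy2, hinvN n hn]; group
  have hnm : (m : G) * (x * n * x⁻¹) * (m : G)⁻¹ = x * n * x⁻¹ := by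
    rw [hNc _ m.2 _ (Subgroup.Normal.conj_mem inferInstance _ hn x), mul_inv_cancel_right]
  have : x * n * x⁻¹ = n := by
    rw [← hnm]
    calc (m : G) * (x * n * x⁻¹) * (m : G)⁻¹ = y * n * y⁻¹ := by rw [hy]; group
      _ = n := hyn
  conv_lhs => rw [← this]
  group

end CfsgLib.Gagola
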